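import Groth.Agent.An.H875.ProperMap
import Groth.Agent.An.H871.Basic

/-!
# S4310-[PT]: closed image and lifting of complex points

* `isClosed_image`: a `ℂ`-morphism from a proper scheme to a separated one is closed on complex points;
* `exists_lift`: if `z` is the only point of a closed set `S` over the `ℂ`-point `x`, then `z` is a `ℂ`-point over `x`.
-/

set_option autoImplicit false

open CategoryTheory AlgebraicGeometry Topology TopologicalSpace

noncomputable section

namespace Groth.Agent.Gaga.H162.PT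

/-- [PT1] -/
theorem isClosed_image {W P : Scheme.{0}} [W.Over An.SC] [P.Over An.SC] [IsProper (W ↘ An.SC)]
    [LocallyOfFiniteType (P ↘ An.SC)] [IsSeparated (P ↘ An.SC)] (f : W ⟶ P) [f.IsOver An.SC]
    (C : Set (An.top W)) (hC : IsClosed C) : IsClosed (An.topMap f '' C) := by
  have h : f ≫ (P ↘ An.SC) = W ↘ An.SC := comp_over f An.SC
  have h1 : IsProper (f ≫ (P ↘ An.SC)) := by rw [h]; infer_instance
  have h2 : IsProper f := IsProper.of_comp f (P ↘ An.SC)
  exact (Groth.Agent.An.H875.ProperMap.isProperMap_map f).isClosedMap C hC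

/-- [PT2] -/
theorem exists_lift {E X : Scheme.{0}} [E.Over An.SC] [X.Over An.SC]
    [LocallyOfFiniteType (E ↘ An.SC)] [LocallyOfFiniteType (X ↘ An.SC)]
    (p : E ⟶ X) [p.IsOver An.SC] (S : Set E) (hS : IsClosed S) (x : An.Pts X) (z : E) (hz : z ∈ S)
    (hzx : p z = x.pt) (huniq : ∀ z' ∈ S, p z' = x.pt → z' = z) :
    ∃ y : An.Pts E, y.pt = z ∧ An.Pts.map p y = x := by
  have hcl : IsClosed ({z} : Set E) := by
    have h1 : ({z} : Set E) = S ∩ p ⁻¹' {x.pt} := by
      ext w
      simp only [Set.mem_singleton_iff, Set.mem_inter_iff, Set.mem_preimage]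
      constructor
      · rintro rfl
        exact ⟨hz, hzx⟩
      · rintro ⟨h1, h2⟩
        exact huniq w h1 h2
    rw [h1]
    exact hS.inter ((Groth.Agent.An.H871.Basic.isClosed_pt x).preimage p.continuous)
  obtain ⟨y, hy⟩ := Groth.Agent.An.H871.Basic.exists_pts z hcl
  refine ⟨y, hy, Groth.Agent.An.H871.Basic.pt_injective ?_⟩
  rw [An.Pts.pt_map, hy, hzx]

end Groth.Agent.Gaga.H162.PT
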